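import Cfsg.Agent.H209.EPX.Defs
import Cfsg.Agent.H284.EP.TForm
import Cfsg.Agent.H419.EP.Soc

/-!
# S5745: from `EPS` (`k = 1`) to `EPT` and `HasSoc` (helper957)
-/

set_option autoImplicit false

namespace Cfsg.Agent.H957.EPX

open Subgroup Cfsg.Agent.H284 Cfsg.Agent.H209.EPX Cfsg.Agent.H419.EP

/-- `EP` in a simple group is `EPT` -/
theorem ept_of_ep {G : Type*} [Group G] [Finite G] [IsSimpleGroup G] (hcomm : ¬ ∀ a b : G, a * b = b * a)
    {H : Subgroup G} (h : EP H) : EPT H (H.map (MulAut.conj : G →* MulAut G)) := by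
  have hs : IsSimpleGroup (⊤ : Subgroup G) := (Subgroup.topEquiv (G := G)).isSimpleGroup
  have hcent : Subgroup.centralizer ((⊤ : Subgroup G) : Set G) = ⊥ := by
    have h1 : Subgroup.centralizer ((⊤ : Subgroup G) : Set G) = center G := by
      rw [Subgroup.coe_top, Subgroup.centralizer_univ]
    rw [h1]
    rcases (inferInstance : (center G).Normal).eq_bot_or_eq_top with h2 | h2
    · exact h2
    · exfalso
      apply hcomm
      intro a b
      have : b ∈ center G := by rw [h2]; exact mem_top _
      exact (mem_center_iff.1 this a)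
  have hsol : Group.IsSolvable (G ⧸ (⊤ : Subgroup G)) := by
    have : Subsingleton (G ⧸ (⊤ : Subgroup G)) := QuotientGroup.subsingleton_quotient_top
    infer_instance
  have h1 := h.toEPT (T := ⊤) (Subgroup.topEquiv (G := G)) hs
    (fun h2 => hcomm fun a b => h2 a (mem_top _) b (mem_top _)) hcent hsol
  have e1 : TA (Subgroup.topEquiv (G := G)) H = H := by
    ext q
    rfl
  have e2 : toAut (Subgroup.topEquiv (G := G)) = (MulAut.conj : G →* MulAut G) := by
    ext g q
    have := toG_toAut (Subgroup.topEquiv (G := G)) g q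
    exact this
  rw [e1, e2] at h1
  exact h1

section

variable {G : Type*} [Group G] {H N : Subgroup G} {T : Type} [Group T] {e : N ≃* (Fin 1 → T)}

/-- the isomorphism with the socle -/
def equivOne (e : N ≃* (Fin 1 → T)) : N ≃* T := e.trans (MulEquiv.funUnique (Fin 1) T)

theorem hasSoc_of_eps (h : EPS H N e) : HasSoc H T := by
  refine ⟨N, h.le, h.nrm, ?_, ⟨equivOne e⟩⟩
  intro a _ hc
  have h1 : a ∈ Subgroup.centralizer (N : Set G) := by
    rw [Subgroup.mem_centralizer_iff]
    exact fun n hn => (hc n hn).symm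
  rwa [h.cent, mem_bot] at h1

/-- the embedding of the socle -/
def emb (_ : EPS H N e) : T →* G := N.subtype.comp (equivOne e).symm.toMonoidHom

theorem emb_injective (h : EPS H N e) : Function.Injective (emb h) :=
  (Subtype.val_injective).comp (equivOne e).symm.injective

theorem not_comm_of_eps (h : EPS H N e) : ¬ ∀ a b : G, a * b = b * a := by
  intro hc
  obtain ⟨a, b, hab⟩ := h.nab
  exact hab (emb_injective h (by rw [map_mul, map_mul, hc]))

theorem ept_of_eps [Finite G] [IsSimpleGroup G] (h : EPS H N e) : EPT H (H.map (MulAut.conj : G →* MulAut G)) :=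
  ept_of_ep (not_comm_of_eps h) h.ep

theorem finite_of_eps [Finite G] (h : EPS H N e) : Finite T := Finite.of_injective _ (emb_injective h)

end

end Cfsg.Agent.H957.EPX
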