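import Cfsg.Agent.H119.EP.USoc
import Cfsg.Agent.H742.EX.EPi

/-!
# Extremely primitive groups whose point stabiliser has socle `U₃(3)`: the points (helper957, for S5745)

`n - 1 ≤ 12411 + 288 (F_g - 1)` for some element `g` of order 7 of `A` (the count is helper4's).
-/

set_option autoImplicit false
set_option linter.unusedSectionVars false

namespace Cfsg.Agent.H957.EPX.U33Pts

open Subgroup MulAction Cfsg Cfsg.Agent.H284 Cfsg.Agent.H119.EP Cfsg.Agent.H419.EP Cfsg.Agent.H742.EX
open Cfsg.Agent.GTwoOdd.Core.HFiveB (emb negOne emb_negOne cyc_mem)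

/-! ### commuting involutions -/

section Lin

variable {F : Type*} [Field F] [Fintype F] (hF : Fintype.card F = 3 ^ 2)

include hF in
theorem exists_comm_su (z : SU 3 F 3) (hz : z * z = 1) (hz1 : z ≠ 1) :
    ∃ w : SU 3 F 3, w * w = 1 ∧ w ≠ 1 ∧ w ≠ z ∧ w * z = z * w := by
  obtain ⟨x, hx⟩ := Cfsg.Agent.GTwoOdd.CentPSU.exists_conj_SU hF (by decide) hz hz1
  obtain ⟨c, hc⟩ := cyc_mem (F := F) (q := 3) hF
  have h2 := Lin.two_ne hF
  have h11 : (-1 : F) ≠ 1 := by
    intro h
    apply h2
    linear_combination -h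
  have e0 : (emb hF (negOne (by decide : Odd 3) hF)).1.1 = !![1, 0, 0; 0, -1, 0; 0, 0, -1] :=
    emb_negOne _ hF
  revert hx e0
  generalize emb hF (negOne (by decide : Odd 3) hF) = z0
  intro hx e0
  have ew : (c * z0 * c * c).1.1 = !![-1, 0, 0; 0, -1, 0; 0, 0, 1] := by
    have e1 : (c * z0 * c * c).1.1 = c.1.1 * z0.1.1 * c.1.1 * c.1.1 := rfl
    rw [e1, hc, e0]
    ext i j
    fin_cases i <;> fin_cases j <;> simp [Matrix.mul_apply, Fin.sum_univ_three]
  have hext : ∀ a b : SU 3 F 3, a.1.1 = b.1.1 → a = b := fun a b h => Subtype.ext (Subtype.ext h)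
  have w1 : (c * z0 * c * c) * (c * z0 * c * c) = 1 := by
    apply hext
    have e1 : ((c * z0 * c * c) * (c * z0 * c * c)).1.1 = (c * z0 * c * c).1.1 * (c * z0 * c * c).1.1 := rfl
    rw [e1, ew]
    ext i j
    fin_cases i <;> fin_cases j <;> simp [Matrix.mul_apply, Fin.sum_univ_three]
  have w2 : (c * z0 * c * c) ≠ 1 := by
    intro h
    have h3 := congrArg (fun a : SU 3 F 3 => a.1.1 0 0) h
    simp only [ew] at h3
    exact h11 (by simpa using h3)
  have w3 : (c * z0 * c * c) ≠ z0 := by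
    intro h
    have h3 := congrArg (fun a : SU 3 F 3 => a.1.1 0 0) h
    simp only [ew, e0] at h3
    exact h11 (by simpa using h3)
  have w4 : (c * z0 * c * c) * z0 = z0 * (c * z0 * c * c) := by
    apply hext
    have e1 : ((c * z0 * c * c) * z0).1.1 = (c * z0 * c * c).1.1 * z0.1.1 := rfl
    have e2 : (z0 * (c * z0 * c * c)).1.1 = z0.1.1 * (c * z0 * c * c).1.1 := rfl
    rw [e1, e2, ew, e0]
    ext i j
    fin_cases i <;> fin_cases j <;> simp [Matrix.mul_apply, Fin.sum_univ_three]
  revert w1 w2 w3 w4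
  generalize c * z0 * c * c = w0
  intro w1 w2 w3 w4
  have key : ∀ a b : SU 3 F 3, x * a * x⁻¹ * (x * b * x⁻¹) = x * (a * b) * x⁻¹ := by
    intro a b
    group
  refine ⟨x * w0 * x⁻¹, ?_, ?_, ?_, ?_⟩
  · rw [key, w1, mul_one, mul_inv_cancel]
  · intro h
    apply w2
    rwa [mul_inv_eq_one, mul_eq_left] at h
  · intro h
    apply w3
    rw [← hx] at h
    exact mul_left_cancel (mul_right_cancel h)
  · rw [← hx, key, key, w4]

theorem exists_comm {N : Type*} [Group N] (e : N ≃* PSU 3 F 3) (hF : Fintype.card F = 3 ^ 2) (z : N) (hz : z * z = 1)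
    (hz1 : z ≠ 1) : ∃ w : N, w * w = 1 ∧ w ≠ 1 ∧ w ≠ z ∧ w * z = z * w := by
  let f : N ≃* SU 3 F 3 := e.trans (Lin.prEquiv hF).symm
  obtain ⟨w, h1, h2, h3, h4⟩ := exists_comm_su hF (f z) (by rw [← map_mul, hz, map_one])
    (by rwa [Ne, EmbeddingLike.map_eq_one_iff])
  refine ⟨f.symm w, ?_, ?_, ?_, ?_⟩
  · rw [← map_mul, h1, map_one]
  · rwa [Ne, EmbeddingLike.map_eq_one_iff]
  · intro h
    apply h3
    rw [← h, f.apply_symm_apply]
  · apply f.injective
    rw [map_mul, map_mul, f.apply_symm_apply, h4]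

end Lin

/-! ### the objects -/

section Abs

variable {N : Type*} [Group N] (h : U33 N)
  (hc : ∀ z : N, z * z = 1 → z ≠ 1 → ∃ w : N, w * w = 1 ∧ w ≠ 1 ∧ w ≠ z ∧ w * z = z * w)

include h

/-- no involution centralises a Sylow 3-subgroup -/
theorem not_cent (S : Sylow 3 N) (z : N) (hz : z * z = 1) (hz1 : z ≠ 1) (hS : ∀ s ∈ (S : Subgroup N), s * z = z * s) :
    False := by
  have := h.finite
  have := Fact.mk Nat.prime_three
  have := Fact.mk (show Nat.Prime 7 by norm_num)
  obtain ⟨g, hg⟩ := exists_prime_orderOf_dvd_card' (G := N) 7 (by rw [h.card]; norm_num)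
  have h1 := h.card_norm (zpowers g) (by rw [Nat.card_zpowers, hg])
  obtain ⟨c, hc⟩ := exists_prime_orderOf_dvd_card' (G := normalizer ((zpowers g : Subgroup N) : Set N)) 3
    (by rw [h1]; norm_num)
  have hc' : orderOf (c : N) = 3 := by rw [orderOf_coe, hc]
  have hp : IsPGroup 3 (zpowers (c : N)) := by
    apply IsPGroup.of_card (n := 1)
    rw [Nat.card_zpowers, hc', pow_one]
  obtain ⟨S', hS'⟩ := hp.exists_le_sylow
  obtain ⟨y, hy⟩ := MulAction.exists_smul_eq N S' S
  have h2 : y * (c : N) * y⁻¹ ∈ (S : Subgroup N) := by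
    rw [← hy, Sylow.coe_subgroup_smul]
    exact Subgroup.smul_mem_pointwise_smul (c : N) (MulAut.conj y) _ (hS' (mem_zpowers _))
  have h3 := hS _ h2
  have h4 := h.three g c (y⁻¹ * z * y) (by rw [← hg, pow_orderOf_eq_one])
    (by rintro rfl; rw [orderOf_one] at hg; omega) (by rw [← hc', pow_orderOf_eq_one])
    (by intro h5; rw [h5, orderOf_one] at hc'; omega)
    ((mem_normalizer_iff.1 c.2 g).1 (mem_zpowers g))
    (by
      have : y⁻¹ * z * y * (y⁻¹ * z * y) = y⁻¹ * (z * z) * y := by group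
      rw [this, hz, mul_one, inv_mul_cancel])
    (by
      have e1 : (c : N) * (y⁻¹ * z * y) = y⁻¹ * (y * c * y⁻¹ * z) * y := by group
      have e2 : y⁻¹ * z * y * (c : N) = y⁻¹ * (z * (y * c * y⁻¹)) * y := by group
      rw [e1, e2, h3])
  apply hz1
  have e1 : z = y * (y⁻¹ * z * y) * y⁻¹ := by group
  rw [e1, h4, mul_one, mul_inv_cancel]

theorem three_of_sylow (S : Sylow 3 N) :
    3 ≤ {z : N | (z * z = 1 ∧ z ≠ 1) ∧ z ∈ normalizer ((S : Subgroup N) : Set N)}.ncard := by
  classical
  have := h.finite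
  have := Fact.mk Nat.prime_three
  have := Fact.mk Nat.prime_two
  by_contra hlt
  set B := normalizer ((S : Subgroup N) : Set N) with hB
  set I := {z : N | (z * z = 1 ∧ z ≠ 1) ∧ z ∈ B} with hI
  have h2 : 2 ∣ Nat.card B := by
    by_contra hodd
    have h1 : Nat.card (Sylow 3 N) = B.index := Sylow.card_eq_index_normalizer S
    have h3 := B.card_mul_index
    rw [← h1, h.card] at h3
    have h4 := h.syl
    have h5 : Nat.Coprime (2 ^ 5) (Nat.card B) :=
      Nat.Coprime.pow_left _ ((Nat.Prime.coprime_iff_not_dvd Nat.prime_two).2 hodd)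
    have h6 : 2 ^ 5 ∣ Nat.card (Sylow 3 N) := h5.dvd_of_dvd_mul_left (by rw [h3]; norm_num)
    have h7 := Nat.le_of_dvd Nat.card_pos h6
    omega
  obtain ⟨z', hz'⟩ := exists_prime_orderOf_dvd_card' (G := B) 2 h2
  have hz : orderOf (z' : N) = 2 := by rw [orderOf_coe, hz']
  have hzI : (z' : N) ∈ I := by
    refine ⟨⟨?_, ?_⟩, z'.2⟩
    · rw [← pow_two, ← hz, pow_orderOf_eq_one]
    · intro h5; rw [h5, orderOf_one] at hz; omega
  have hSB : (S : Subgroup N) ≤ B := le_normalizer
  refine not_cent h S z' hzI.1.1 hzI.1.2 ?_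
  intro s hs
  -- `z', s z' s⁻¹, s² z' s⁻²`
  by_contra hne
  apply hlt
  have hmem : ∀ s ∈ (S : Subgroup N), s * z' * s⁻¹ ∈ I := by
    intro s hs
    refine ⟨⟨?_, ?_⟩, B.mul_mem (B.mul_mem (hSB hs) z'.2) (B.inv_mem (hSB hs))⟩
    · have e : s * (z' : N) * s⁻¹ * (s * z' * s⁻¹) = s * (z' * z') * s⁻¹ := by group
      rw [e, hzI.1.1, mul_one, mul_inv_cancel]
    · intro h5
      apply hzI.1.2
      rwa [mul_inv_eq_one, mul_eq_left] at h5
  have hne1 : s * (z' : N) * s⁻¹ ≠ z' := by
    intro h5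
    apply hne
    rwa [mul_inv_eq_iff_eq_mul] at h5
  have hne2 : s * (s * (z' : N) * s⁻¹) * s⁻¹ ≠ s * z' * s⁻¹ := by
    intro h5
    apply hne1
    exact mul_left_cancel (mul_right_cancel h5)
  have hne3 : s * (s * (z' : N) * s⁻¹) * s⁻¹ ≠ z' := by
    intro h5
    -- `s ^ 2` commutes with `z'`, `s` has odd order
    obtain ⟨k, hk⟩ := (IsPGroup.iff_orderOf.1 S.isPGroup') ⟨s, hs⟩
    rw [orderOf_mk] at hk
    have h6 : Commute (s ^ 2) (z' : N) := by
      have e : s ^ 2 * (z' : N) * (s ^ 2)⁻¹ = s * (s * (z' : N) * s⁻¹) * s⁻¹ := by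
        rw [pow_two]; group
      rw [h5, mul_inv_eq_iff_eq_mul] at e
      exact e
    obtain ⟨m, hm⟩ : Odd (3 ^ k) := Odd.pow (by decide)
    have h7 : s = (s ^ 2) ^ (m + 1) := by
      rw [← pow_mul, show 2 * (m + 1) = 3 ^ k + 1 by omega, pow_succ, ← hk, pow_orderOf_eq_one, one_mul]
    apply hne
    rw [h7]
    exact h6.pow_left (m + 1)
  have h3 : ({(z' : N), s * z' * s⁻¹, s * (s * z' * s⁻¹) * s⁻¹} : Set N) ⊆ I := by
    rintro y (rfl | rfl | rfl)
    · exact hzI
    · exact hmem s hs
    · have e : s * (s * (z' : N) * s⁻¹) * s⁻¹ = (s * s) * z' * (s * s)⁻¹ := by group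
      rw [e]
      exact hmem _ (mul_mem hs hs)
  have h4 := Set.ncard_le_ncard h3 (Set.toFinite _)
  rw [Set.ncard_insert_of_notMem, Set.ncard_pair hne2.symm] at h4
  · exact h4
  · rintro (h5 | h5)
    · exact hne1 h5.symm
    · exact hne3 h5.symm

include hc in
theorem three_le {O : Subgroup N} (hO : O ∈ Obj N) (h7 : Nat.card O ≠ 7) :
    3 ≤ {z : N | (z * z = 1 ∧ z ≠ 1) ∧ z ∈ normalizer (O : Set N)}.ncard := by
  classical
  have := h.finite
  rcases hO with (((⟨S, rfl⟩ | hO) | hO) | hO) | hO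
  · exact three_of_sylow h S
  · exact absurd hO h7
  · -- order 2
    have hO' : Nat.card O = 2 := hO
    have := Fact.mk Nat.prime_two
    obtain ⟨z', hz'⟩ := exists_prime_orderOf_dvd_card' (G := O) 2 (by rw [hO'])
    have hz : orderOf (z' : N) = 2 := by rw [orderOf_coe, hz']
    have hOz : O = zpowers (z' : N) := by
      symm
      apply eq_of_le_of_card_ge
      · rw [zpowers_le]; exact z'.2
      · rw [Nat.card_zpowers, hz, hO']
    have hzz : (z' : N) * z' = 1 := by rw [← pow_two, ← hz, pow_orderOf_eq_one]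
    have hz1 : (z' : N) ≠ 1 := by intro h5; rw [h5, orderOf_one] at hz; omega
    obtain ⟨w, w1, w2, w3, w4⟩ := hc z' hzz hz1
    have hcent : ∀ y : N, y * z' = z' * y → y ∈ normalizer (O : Set N) := by
      intro y hy
      have hy' : ∀ g ∈ O, y * g * y⁻¹ = g := by
        intro g hg
        rw [hOz, mem_zpowers_iff] at hg
        obtain ⟨k, rfl⟩ := hg
        have h3 : Commute y ((z' : N) ^ k) := Commute.zpow_right hy k
        rw [h3.eq, mul_inv_cancel_right]
      rw [mem_normalizer_iff]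
      intro g
      constructor
      · intro hg
        rw [hy' g hg]
        exact hg
      · intro hg
        have h3 := hy' _ hg
        have h4 : y * g * y⁻¹ = g := mul_left_cancel (mul_right_cancel h3)
        rw [h4] at hg
        exact hg
    have hzw : (z' : N) * w ≠ 1 := by
      intro h5
      apply w3
      have h6 : (z' : N) * w = z' * z' := by rw [h5, hzz]
      exact mul_left_cancel h6
    have h3 : ({(z' : N), w, z' * w} : Set N) ⊆ {z : N | (z * z = 1 ∧ z ≠ 1) ∧ z ∈ normalizer (O : Set N)} := by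
      rintro y (rfl | rfl | rfl)
      · exact ⟨⟨hzz, hz1⟩, hcent _ rfl⟩
      · exact ⟨⟨w1, w2⟩, hcent _ w4⟩
      · refine ⟨⟨?_, hzw⟩, hcent _ ?_⟩
        · calc (z' : N) * w * (z' * w) = z' * (w * z') * w := by group
            _ = (z' * z') * (w * w) := by rw [w4]; group
            _ = 1 := by rw [hzz, w1, one_mul]
        · rw [mul_assoc, w4]
    have h4 := Set.ncard_le_ncard h3 (Set.toFinite _)
    rw [Set.ncard_insert_of_notMem, Set.ncard_pair] at h4
    · exact h4
    · intro h5
      exact hz1 (mul_eq_right.1 h5.symm)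
    · rintro (h5 | h5)
      · exact w3 h5.symm
      · exact w2 (mul_eq_left.1 (Set.mem_singleton_iff.1 h5).symm)
  · -- four-groups
    obtain ⟨h4, h4'⟩ := hO
    have h5 : ((O : Set N) \ {1}) ⊆ {z : N | (z * z = 1 ∧ z ≠ 1) ∧ z ∈ normalizer (O : Set N)} := by
      rintro y ⟨hy, hy1⟩
      exact ⟨⟨h4' y hy, hy1⟩, le_normalizer hy⟩
    have h6 := Set.ncard_le_ncard h5 (Set.toFinite _)
    have h7 := Set.ncard_sdiff_singleton_add_one (s := (O : Set N)) (a := 1) (one_mem O) (Set.toFinite _)
    have h8 : (O : Set N).ncard = 4 := h4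
    omega
  · have h5 : {z : N | (z * z = 1 ∧ z ≠ 1) ∧ z ∈ O} ⊆
        {z : N | (z * z = 1 ∧ z ≠ 1) ∧ z ∈ normalizer (O : Set N)} := by
      rintro z ⟨h1, h2⟩
      exact ⟨h1, le_normalizer h2⟩
    have h6 := Set.ncard_le_ncard h5 (Set.toFinite _)
    have h7 := h.K_inv hO
    omega

end Abs

/-! ### counting -/

section Count

variable {Q : Type*} [Group Q] [Finite Q]

theorem sum_le (A : Subgroup Q) [Fintype (Q ⧸ A)] [DecidableEq (Q ⧸ A)] (S : Finset Q) (f : ℕ) (hSA : ∀ s ∈ S, s ∈ A)
    (hf : ∀ s ∈ S, F A s ≤ f + 1) :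
    ∑ b ∈ Finset.univ.erase (QuotientGroup.mk 1 : Q ⧸ A), (S.filter (fun s => s • b = b)).card ≤ S.card * f := by
  classical
  have h1 := Finset.sum_card_bipartiteAbove_eq_sum_card_bipartiteBelow
    (s := Finset.univ.erase (QuotientGroup.mk 1 : Q ⧸ A)) (t := S) (fun b s => s • b = b)
  have h2 : ∑ b ∈ Finset.univ.erase (QuotientGroup.mk 1 : Q ⧸ A), (S.filter (fun s => s • b = b)).card =
      ∑ b ∈ Finset.univ.erase (QuotientGroup.mk 1 : Q ⧸ A),
        (Finset.bipartiteAbove (fun (b : Q ⧸ A) (s : Q) => s • b = b) S b).card := rfl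
  rw [h2, h1, ← smul_eq_mul]
  refine Finset.sum_le_card_nsmul _ _ _ fun s hs => ?_
  have h3 : (Finset.bipartiteBelow (fun (b : Q ⧸ A) (s : Q) => s • b = b)
      (Finset.univ.erase (QuotientGroup.mk 1 : Q ⧸ A)) s) =
      (Finset.univ.filter (fun b : Q ⧸ A => s • b = b)).erase (QuotientGroup.mk 1) := by
    unfold Finset.bipartiteBelow
    rw [Finset.filter_erase]
  rw [h3, Finset.card_erase_of_mem]
  · have h4 : F A s = (Finset.univ.filter (fun b : Q ⧸ A => s • b = b)).card := by
      rw [F, Nat.card_eq_fintype_card, Fintype.card_subtype]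
      rfl
    have h5 := hf s hs
    omega
  · rw [Finset.mem_filter]
    refine ⟨Finset.mem_univ _, ?_⟩
    refine (mem_fixedBy).1 (fixedBy_iff.2 ?_)
    rw [inv_one, one_mul, mul_one]
    exact hSA s hs

theorem count (A : Subgroup Q) (S T : Finset Q) (hSA : ∀ s ∈ S, s ∈ A) (hTA : ∀ s ∈ T, s ∈ A) (f g : ℕ)
    (hf : ∀ s ∈ S, F A s ≤ f + 1) (hg : ∀ s ∈ T, F A s ≤ g + 1)
    (hM : ∀ x, x ∉ A → 3 ≤ {s : Q | s ∈ S ∧ s ∈ cj x A}.ncard ∨ 6 ≤ {s : Q | s ∈ T ∧ s ∈ cj x A}.ncard) :
    6 * (A.index - 1) ≤ 2 * (S.card * f) + T.card * g := by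
  classical
  have hfin : Finite (Q ⧸ A) := inferInstance
  let _ : Fintype (Q ⧸ A) := Fintype.ofFinite _
  have h1 := sum_le A S f hSA hf
  have h2 := sum_le A T g hTA hg
  have hst : ∀ b ∈ Finset.univ.erase (QuotientGroup.mk 1 : Q ⧸ A),
      6 ≤ 2 * (S.filter (fun s => s • b = b)).card + (T.filter (fun s => s • b = b)).card := by
    intro b hb
    obtain ⟨x, rfl⟩ := QuotientGroup.mk_surjective b
    have hx : x ∉ A := by
      intro hx
      apply Finset.ne_of_mem_erase hb
      rw [QuotientGroup.eq, mul_one]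
      exact A.inv_mem hx
    have key : ∀ S : Finset Q, {s : Q | s ∈ S ∧ s ∈ cj x A}.ncard =
        (S.filter (fun s => s • (QuotientGroup.mk x : Q ⧸ A) = QuotientGroup.mk x)).card := by
      intro S
      rw [← Set.ncard_coe_finset]
      congr 1
      ext s
      rw [Finset.mem_coe, Finset.mem_filter, Set.mem_ofPred_eq]
      refine and_congr_right fun _ => ?_
      rw [mem_cj]
      exact fixedBy_iff.symm.trans mem_fixedBy
    have h3 := hM x hx
    rw [key, key] at h3
    omega
  have h3 := Finset.sum_le_sum hst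
  rw [Finset.sum_const, Finset.card_erase_of_mem (Finset.mem_univ _), Finset.card_univ, ← Nat.card_eq_fintype_card,
    smul_eq_mul, Finset.sum_add_distrib, ← Finset.mul_sum] at h3
  have hidx : Nat.card (Q ⧸ A) = A.index := rfl
  rw [hidx] at h3
  omega

end Count

/-! ### the bound -/

section Main

variable {Q : Type*} [Group Q] [Finite Q] {A : Subgroup Q} {Γ : Subgroup (MulAut Q)} {N : Subgroup Q}
  {K : Type*} [Field K] [Fintype K]

/-- a group `U₃(3)` has at most `1728` elements of order 7 -/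
theorem card_el_seven (hU : U33 N) : (el N 7).card ≤ 1728 := by
  classical
  have := hU.finite
  have := Fintype.ofFinite N
  have hfs : Finite (Subgroup N) := inferInstance
  have h288 := hU.ncard_seven
  have h1 := Finset.card_le_mul_card_image_of_maps_to (s := el N 7)
    (t := (Set.toFinite ((fun P : Subgroup N => P.map N.subtype) '' {P : Subgroup N | Nat.card P = 7})).toFinset)
    (f := fun g => zpowers g) (by
      intro g hg
      rw [mem_el] at hg
      rw [Set.Finite.mem_toFinset]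
      refine ⟨zpowers ⟨g, hg.1⟩, ?_, ?_⟩
      · show Nat.card (zpowers (⟨g, hg.1⟩ : N)) = 7
        rw [Nat.card_zpowers, orderOf_mk, hg.2]
      · show (zpowers (⟨g, hg.1⟩ : N)).map N.subtype = zpowers g
        rw [MonoidHom.map_zpowers]
        rfl) 6 (by
      intro P hP
      rw [Set.Finite.mem_toFinset] at hP
      obtain ⟨P', hP', rfl⟩ := hP
      have h7 : Nat.card (P'.map N.subtype : Subgroup Q) = 7 := by
        rw [card_map_of_injective (K := P') (f := N.subtype) N.subtype_injective]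
        exact hP'
      have h8 := Set.ncard_sdiff_singleton_add_one (s := ((P'.map N.subtype : Subgroup Q) : Set Q)) (a := 1)
        (one_mem _) (Set.toFinite _)
      have h9 : ((P'.map N.subtype : Subgroup Q) : Set Q).ncard = 7 := h7
      have h10 : (((el N 7).filter (fun g => zpowers g = P'.map N.subtype) : Finset Q) : Set Q) ⊆
          ((P'.map N.subtype : Subgroup Q) : Set Q) \ {1} := by
        intro g hg
        rw [Finset.mem_coe, Finset.mem_filter, mem_el] at hg
        refine ⟨?_, ?_⟩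
        · rw [← hg.2]; exact mem_zpowers g
        · intro h11
          rw [Set.mem_singleton_iff] at h11
          have := hg.1.2
          rw [h11, orderOf_one] at this
          omega
      have h11 := Set.ncard_le_ncard h10 (Set.toFinite _)
      rw [Set.ncard_coe_finset] at h11
      show ((el N 7).filter (fun g => zpowers g = P'.map N.subtype)).card ≤ 6
      omega)
  have h2 : (Set.toFinite ((fun P : Subgroup N => P.map N.subtype) '' {P : Subgroup N | Nat.card P = 7})).toFinset.card
      ≤ 288 := by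
    rw [← Set.ncard_eq_toFinset_card]
    exact (Set.ncard_image_le (Set.toFinite _)).trans h288
  omega

/-- a group `U₃(3)` has at most `63` involutions -/
theorem card_el_two (hU : U33 N) : (el N 2).card ≤ 63 := by
  classical
  have := hU.finite
  refine le_trans ?_ hU.inv_le
  rw [← Set.ncard_coe_finset]
  have h1 : ((el N 2 : Finset Q) : Set Q) ⊆ (fun z : N => (z : Q)) '' {z : N | z * z = 1 ∧ z ≠ 1} := by
    intro g hg
    rw [Finset.mem_coe, mem_el] at hg
    refine ⟨⟨g, hg.1⟩, ⟨?_, ?_⟩, rfl⟩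
    · apply Subtype.ext
      show g * g = 1
      rw [← pow_two, ← hg.2, pow_orderOf_eq_one]
    · intro h2
      have h3 : g = 1 := congrArg Subtype.val h2
      have h4 := hg.2
      rw [h3, orderOf_one] at h4
      omega
  exact (Set.ncard_le_ncard h1 (Set.toFinite _)).trans (Set.ncard_image_le (Set.toFinite _))

variable (h : EPT A Γ) (hNA : N ≤ A) (hNn : ∀ a ∈ A, ∀ n ∈ N, a * n * a⁻¹ ∈ N) (hK : Fintype.card K = 3 ^ 2)
  (e : N ≃* PSU 3 K 3) (hC : ∀ a ∈ A, (∀ n ∈ N, a * n = n * a) → a = 1)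

include h hNA hNn hK e hC

/-- **the number of points** -/
theorem index_bound : ∃ g ∈ N, orderOf g = 7 ∧ A.index ≤ 12412 + 288 * (F A g - 1) := by
  classical
  have hU := u33_N hK e
  have := Fact.mk (show Nat.Prime 7 by norm_num)
  have hne : (el N 7).Nonempty := by
    obtain ⟨g, hg⟩ := exists_prime_orderOf_dvd_card' (G := N) 7 (by rw [hU.card]; norm_num)
    exact ⟨g, mem_el.2 ⟨g.2, by rw [orderOf_coe, hg]⟩⟩
  obtain ⟨g, hg, hmax⟩ := Finset.exists_max_image (el N 7) (fun g => F A g) hne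
  obtain ⟨hgN, hg7⟩ := mem_el.1 hg
  refine ⟨g, hgN, hg7, ?_⟩
  have hM := ncard_psu33 h hNA hNn hK e hC
  have h1 := count A (el N 2) (el N 7) (fun s hs => hNA (mem_el.1 hs).1) (fun s hs => hNA (mem_el.1 hs).1) 591
    (F A g - 1) (by
      intro s hs
      have h2 := h.fix_le s (by
        rintro rfl
        have := (mem_el.1 hs).2
        rw [orderOf_one] at this
        omega)
      have h3 : F A s = {c : Q ⧸ A | s • c = c}.ncard := rfl
      omega) (by
      intro s hs
      have := hmax s hs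
      omega) (by
      intro x hx
      obtain ⟨O, hO, hO2⟩ := exists_O h hNA hNn hU hC (card_mulAut_le hK e) hx
      have hmem : ∀ n : N, n ∈ normalizer (O : Set N) → (n : Q) ∈ cj x A := by
        intro n hn
        have h2 : (n : Q) ∈ A ⊓ cj x A := by
          rw [hO2]
          refine mem_inf.2 ⟨hNA n.2, ?_⟩
          rw [mem_normalizer_iff] at hn ⊢
          intro y
          constructor
          · rintro ⟨o, ho, rfl⟩
            exact ⟨n * o * n⁻¹, (hn o).1 ho, rfl⟩
          · rintro ⟨o, ho, ho2⟩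
            have h3 : y = (n : Q)⁻¹ * o * n := by
              have h4 : ((o : N) : Q) = n * y * (n : Q)⁻¹ := ho2
              rw [h4]; group
            refine ⟨n⁻¹ * o * n, ?_, h3.symm⟩
            apply (hn _).2
            have h4 : n * (n⁻¹ * o * n) * n⁻¹ = o := by group
            rw [h4]
            exact ho
        exact (mem_inf.1 h2).2
      by_cases h7 : Nat.card O = 7
      · right
        have h2 := le_card_el (O.map N.subtype) (r := 7) (by norm_num) (by
          rw [card_map_of_injective (K := O) (f := N.subtype) N.subtype_injective, h7])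
        refine h2.trans ?_
        rw [← Set.ncard_coe_finset]
        apply Set.ncard_le_ncard _ (Set.toFinite _)
        intro y hy
        rw [Finset.mem_coe, mem_el] at hy
        obtain ⟨⟨o, ho, rfl⟩, hy2⟩ := hy
        exact ⟨mem_el.2 ⟨o.2, hy2⟩, hmem o (le_normalizer ho)⟩
      · left
        have h2 := three_le hU (exists_comm e hK) hO h7
        refine h2.trans ?_
        rw [← Set.ncard_image_of_injective _ N.subtype_injective]
        apply Set.ncard_le_ncard _ (Set.toFinite _)
        rintro _ ⟨z, ⟨⟨hz, hz1⟩, hz2⟩, rfl⟩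
        refine ⟨mem_el.2 ⟨z.2, ?_⟩, hmem z hz2⟩
        rw [show N.subtype z = (z : Q) from rfl, orderOf_coe]
        exact orderOf_eq_prime (by rw [pow_two, hz]) hz1)
  have h2 := card_el_two hU
  have h3 := card_el_seven hU
  have h4 : 2 * ((el N 2).card * 591) ≤ 2 * (63 * 591) := by omega
  have h5 : (el N 7).card * (F A g - 1) ≤ 1728 * (F A g - 1) := Nat.mul_le_mul h3 le_rfl
  omega

omit h in
/-- the elements of order 7 of `A` -/
theorem card_el_A : (el A 7).card ≤ 1728 := by
  refine le_trans (Finset.card_le_card ?_) (card_el_seven (u33_N hK e))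
  intro g hg
  rw [mem_el] at hg ⊢
  refine ⟨?_, hg.2⟩
  have hA := card_A hNA hNn (u33_N hK e) hC (card_mulAut_le hK e)
  have hN := (u33_N hK e).card
  have hn : (N.subgroupOf A).Normal := by
    constructor
    intro m hm g
    exact hNn _ g.2 _ hm
  have h1 : (N.subgroupOf A).index ≤ 2 := by
    have h2 := (N.subgroupOf A).card_mul_index
    have h3 : Nat.card (N.subgroupOf A) = 6048 := by
      rw [← hN]
      exact Nat.card_congr (subgroupOfEquivOfLe hNA).toEquiv
    rw [h3] at h2
    by_contra h4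
    push Not at h4
    have := Nat.mul_le_mul (le_refl 6048) h4
    omega
  have h2 : (⟨g, hg.1⟩ : A) ^ 2 ∈ N.subgroupOf A := by
    have h3 : (N.subgroupOf A).index ≠ 0 := index_ne_zero_of_finite
    have h4 : (N.subgroupOf A).index ∣ 2 := by
      interval_cases (N.subgroupOf A).index
      · exact absurd rfl h3
      · norm_num
      · norm_num
    obtain ⟨k, hk⟩ := h4
    rw [hk, pow_mul]
    exact pow_mem (pow_index_mem _ _) k
  have h3 : g ^ 2 ∈ N := h2
  have h4 : g = (g ^ 2) ^ 4 := by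
    rw [← pow_mul]
    have h5 : g ^ (2 * 4) = g ^ orderOf g * g := by rw [hg.2]; group
    rw [h5, pow_orderOf_eq_one, one_mul]
  rw [h4]
  exact N.pow_mem h3 4

omit h in
/-- fixed points and centralisers -/
theorem F_le {g : Q} (hg : orderOf g = 7) :
    F A g * Nat.card A ≤ 1728 * Nat.card (centralizer ({g} : Set Q)) := by
  classical
  rw [F_mul]
  have h1 : cH A g ≤ 1728 := by
    refine le_trans ?_ (card_el_A hNA hNn hK e hC)
    have h5 : cH A g ≤ Nat.card (el A 7) := by
      refine Nat.card_le_card_of_injective (fun y => ⟨y.1, mem_el.2 ⟨y.2.2, ?_⟩⟩) ?_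
      · obtain ⟨d, hd⟩ := isConj_iff.1 y.2.1
        rw [← hd, ← hg]
        exact (MulAut.conj d).orderOf_eq g
      · intro y z hyz
        exact Subtype.ext (congrArg (fun t : el A 7 => (t : Q)) hyz)
    rwa [Nat.card_eq_fintype_card, Fintype.card_coe] at h5
  have h2 : Nat.card {x : Q // x⁻¹ * g * x = g} = Nat.card (centralizer ({g} : Set Q)) := by
    refine Nat.card_congr (Equiv.subtypeEquivRight fun x => ?_)
    rw [mem_centralizer_singleton_iff]
    constructor
    · intro h3
      calc x * g = x * (x⁻¹ * g * x) := by rw [h3]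
        _ = g * x := by group
    · intro h3
      rw [mul_assoc, ← h3, inv_mul_cancel_left]
  rw [h2]
  exact Nat.mul_le_mul h1 le_rfl

omit h in
/-- the order of `A` -/
theorem card_A_cases : Nat.card A = 6048 ∨ Nat.card A = 12096 := by
  have hA := card_A hNA hNn (u33_N hK e) hC (card_mulAut_le hK e)
  have hN := (u33_N hK e).card
  have h1 := card_dvd_of_le hNA
  rw [hN] at h1
  obtain ⟨k, hk⟩ := h1
  have h2 : 0 < Nat.card A := Nat.card_pos
  rw [hk] at hA h2 ⊢
  have h3 : k ≤ 2 := by omega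
  interval_cases k
  · omega
  · left; norm_num
  · right; norm_num

end Main

end Cfsg.Agent.H957.EPX.U33Pts
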